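import Cfsg.Agent.Lib.Helper3.CN

namespace Cfsg.Agent.Lib.Helper3.CN

variable {G : Type*} [Group G] [Finite G]

/-- maximal nilpotent subgroups -/
def MaxNil (H : Subgroup G) : Prop :=
  Group.IsNilpotent ↥H ∧ ∀ L : Subgroup G, Group.IsNilpotent L → H ≤ L → L = H

omit [Finite G] in
theorem nilpotent_conj {H : Subgroup G} (hH : Group.IsNilpotent H) (g : G) :
    Group.IsNilpotent (H.map (MulAut.conj g).toMonoidHom) := by
  haveI := hH
  exact Group.nilpotent_of_mulEquiv ((MulAut.conj g).subgroupMap H)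

omit [Finite G] in
theorem map_conj_conj (H : Subgroup G) (g : G) :
    (H.map (MulAut.conj g).toMonoidHom).map (MulAut.conj g⁻¹).toMonoidHom = H := by
  rw [Subgroup.map_map]
  convert Subgroup.map_id H
  ext x
  simp [mul_assoc]

omit [Finite G] in
theorem MaxNil.conj {H : Subgroup G} (hH : MaxNil H) (g : G) :
    MaxNil (H.map (MulAut.conj g).toMonoidHom) := by
  refine ⟨nilpotent_conj hH.1 g, ?_⟩
  intro L hL hle
  have h1 : H ≤ L.map (MulAut.conj g⁻¹).toMonoidHom := by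
    rw [← map_conj_conj H g]
    exact Subgroup.map_mono hle
  have h2 := hH.2 _ (nilpotent_conj hL g⁻¹) h1
  rw [← h2]
  have := map_conj_conj L g⁻¹
  rw [inv_inv] at this
  exact this.symm

theorem exists_maxNil {C : Subgroup G} (hC : Group.IsNilpotent C) : ∃ H, MaxNil H ∧ C ≤ H := by
  have hfin : {L : Subgroup G | Group.IsNilpotent L}.Finite := Set.toFinite _
  obtain ⟨M, hCM, hM⟩ := hfin.exists_le_maximal (a := C) hC
  refine ⟨M, ⟨hM.1, ?_⟩, hCM⟩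
  intro L hL hML
  exact le_antisymm (hM.2 hL hML) hML

omit [Finite G] in
theorem dvd_orderOf {p : ℕ} [Fact p.Prime] {x : G} (hx : x ≠ 1)
    (hp : IsPGroup p (Subgroup.zpowers x)) : p ∣ orderOf x := by
  obtain ⟨k, hk⟩ := hp ⟨x, Subgroup.mem_zpowers x⟩
  have hk' : x ^ p ^ k = 1 := congrArg Subtype.val hk
  obtain ⟨j, _, hj⟩ := (Nat.dvd_prime_pow (Fact.out : p.Prime)).1 (orderOf_dvd_of_pow_eq_one hk')
  rw [hj]
  apply dvd_pow_self
  rintro rfl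
  rw [pow_zero, orderOf_eq_one_iff] at hj
  exact hx hj

theorem dvd_card_of_mem {p : ℕ} [Fact p.Prime] {x : G} {H : Subgroup G} (hxH : x ∈ H) (hx : x ≠ 1)
    (hp : IsPGroup p (Subgroup.zpowers x)) : p ∣ Nat.card H := by
  refine (dvd_orderOf hx hp).trans ?_
  have := orderOf_dvd_natCard (⟨x, hxH⟩ : H)
  rwa [← Subgroup.orderOf_coe] at this

/-- two maximal nilpotent subgroups of a CN-group sharing a Sylow subgroup of `G` are equal -/
theorem eq_of_sylow_le (hCN : Cfsg.IsCNGroup G) {H₁ H₂ : Subgroup G} (h₁ : MaxNil H₁)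
    (h₂ : MaxNil H₂) {p : ℕ} [hp : Fact p.Prime] (P : Sylow p G) (hP1 : (P : Subgroup G) ≠ ⊥)
    (hP₁ : (P : Subgroup G) ≤ H₁) (hP₂ : (P : Subgroup G) ≤ H₂) : H₁ = H₂ := by
  by_cases hp₁ : IsPGroup p H₁
  · have h : (P : Subgroup G) = H₁ := (P.3 hp₁ hP₁).symm
    rw [← h] at h₁ ⊢
    exact (h₁.2 H₂ h₂.1 hP₂).symm
  by_cases hp₂ : IsPGroup p H₂
  · have h : (P : Subgroup G) = H₂ := (P.3 hp₂ hP₂).symm
    rw [← h] at h₂ ⊢
    exact h₂.2 H₁ h₁.1 hP₁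
  obtain ⟨x, hxP, hx1⟩ : ∃ x ∈ (P : Subgroup G), x ≠ 1 := by
    by_contra hcon
    push Not at hcon
    exact hP1 ((Subgroup.eq_bot_iff_forall _).2 hcon)
  have hpd₁ : p ∣ Nat.card H₁ :=
    dvd_card_of_mem (hP₁ hxP) hx1 (P.2.to_le (by rwa [Subgroup.zpowers_le]))
  have hpd₂ : p ∣ Nat.card H₂ :=
    dvd_card_of_mem (hP₂ hxP) hx1 (P.2.to_le (by rwa [Subgroup.zpowers_le]))
  obtain ⟨q₁, hq₁, hqd₁, hqp₁⟩ := exists_other_prime hp₁
  obtain ⟨q₂, hq₂, hqd₂, hqp₂⟩ := exists_other_prime hp₂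
  have hC₁ := centralizer_le_of_two hCN h₁.1 h₁.2 hp.out hq₁ hqp₁.symm hpd₁ hqd₁ (hP₁ hxP) hx1
  obtain ⟨w, hwH, hwo, hwc⟩ := exists_central h₂.1 hq₂ hqd₂
  have hw1 := ne_one_of_orderOf hq₂ hwo
  have hw₁ : w ∈ H₁ := by
    apply hC₁
    rw [Subgroup.mem_centralizer_singleton_iff]
    exact (hwc x (hP₂ hxP)).symm
  have h3 := centralizer_le_of_two hCN h₁.1 h₁.2 hp.out hq₁ hqp₁.symm hpd₁ hqd₁ hw₁ hw1
  rw [centralizer_eq hCN h₂.2 hw1 hwc] at h3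
  exact h₂.2 H₁ h₁.1 h3

theorem conj_or_coprime (hCN : Cfsg.IsCNGroup G) {H₁ H₂ : Subgroup G} (h₁ : MaxNil H₁)
    (h₂ : MaxNil H₂) :
    (∃ g : G, H₂ = H₁.map (MulAut.conj g).toMonoidHom) ∨ (Nat.card H₁).Coprime (Nat.card H₂) := by
  by_cases hc : (Nat.card H₁).Coprime (Nat.card H₂)
  · exact Or.inr hc
  left
  obtain ⟨p, hp, hd₁, hd₂⟩ := Nat.Prime.not_coprime_iff_dvd.1 hc
  haveI : Fact p.Prime := ⟨hp⟩
  obtain ⟨P₁, hP₁⟩ := exists_sylow_le hCN h₁.1 h₁.2 hd₁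
  obtain ⟨P₂, hP₂⟩ := exists_sylow_le hCN h₂.1 h₂.2 hd₂
  obtain ⟨g, hg⟩ := MulAction.exists_smul_eq G P₁ P₂
  refine ⟨g, ?_⟩
  have hle : (P₂ : Subgroup G) ≤ H₁.map (MulAut.conj g).toMonoidHom := by
    rw [← hg]
    intro x hx
    rw [Sylow.coe_subgroup_smul, Subgroup.mem_pointwise_smul_iff_inv_smul_mem] at hx
    refine ⟨_, hP₁ hx, ?_⟩
    simp only [MulAut.smul_def, MulEquiv.coe_toMonoidHom, MulAut.conj_apply, MulAut.conj_inv_apply]
    group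
  have hP1 : (P₂ : Subgroup G) ≠ ⊥ := by
    apply P₂.ne_bot_of_dvd_card
    exact hd₂.trans (Subgroup.card_subgroup_dvd_card H₂)
  exact (eq_of_sylow_le hCN (h₁.conj g) h₂ P₂ hP1 hle hP₂).symm

end Cfsg.Agent.Lib.Helper3.CN
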